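import Cfsg.Agent.H930.SpOrdA
import Cfsg.Agent.H879.ExtTwo
import Cfsg.Agent.H954.FieldSub
import Cfsg.Agent.ClassicalGeometry.SympIso

/-!
# Coordinates of a field `K` of degree `s` in `M_2m(F)`, self-adjoint for the symplectic form

`Cd m F E n` : `e : E^2n ≃ F^2m`, `f (e x) (e y) = ℓ (f x y)`; `Cd.Psi : GL_2n(E) →* GL_2m(F)`.
-/

set_option autoImplicit false
set_option linter.unusedSectionVars false

namespace Cfsg.Agent.H402.Rg

open Module Matrix Cfsg Cfsg.Geo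
open scoped MatrixGroups Matrix
open Cfsg.Agent.ClassicalGeometry.SympBasic
open Cfsg.Agent.H879.ExtField (modOf ell_ext exists_phi exists_rep)
open Cfsg.Agent.H926.Cc (conjHom conjHom_apply conjHom_mul exists_sigma mem_normalizer_of_conjHom
  conjHom_of_mem_normalizer)

universe u v

/-- coordinates of a symplectic field -/
structure Cd (m : ℕ) (F : Type u) [Field F] (E : Type v) [Field E] [Algebra F E] (n : ℕ) where
  ρ : E →ₐ[F] Matrix (Fin m ⊕ Fin m) (Fin m ⊕ Fin m) F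
  ℓ : E →ₗ[F] F
  e : (Fin n ⊕ Fin n → E) ≃ₗ[F] (Fin m ⊕ Fin m → F)
  ne : ℓ ≠ 0
  smul : ∀ (k : E) (x : Fin n ⊕ Fin n → E), e (k • x) = ρ k *ᵥ e x
  form : ∀ x y, sympForm m F (e x) (e y) = ℓ (sympForm n E x y)

variable {m n s : ℕ} {F : Type u} [Field F] [Fintype F]

theorem eq_of_mulVec {R : Type*} [CommRing R] {κ : Type*} [Fintype κ] [DecidableEq κ] {A B : Matrix κ κ R}
    (h : ∀ x, A *ᵥ x = B *ᵥ x) : A = B := by
  apply Matrix.toLin'.injective
  ext1 i
  ext1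
  simp only [LinearMap.comp_apply, Matrix.toLin'_apply]
  rw [h]

/-- existence of the coordinates, abstract field -/
theorem exists_cd' {E : Type v} [Field E] [Algebra F E] [FiniteDimensional F E] (hm : 1 ≤ m)
    (ρ : E →ₐ[F] Matrix (Fin m ⊕ Fin m) (Fin m ⊕ Fin m) F)
    (hsa : ∀ k x y, sympForm m F (ρ k *ᵥ x) y = sympForm m F x (ρ k *ᵥ y))
    (halt : ∀ k x, sympForm m F (ρ k *ᵥ x) x = 0) :
    ∃ (n : ℕ) (c : Cd m F E n), c.ρ = ρ ∧ finrank F E * n = m := by
  classical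
  let instM : Module E (Fin m ⊕ Fin m → F) := modOf ρ
  have hsmul : ∀ (k : E) (v : Fin m ⊕ Fin m → F), k • v = ρ k *ᵥ v := fun _ _ => rfl
  have instT : IsScalarTower F E (Fin m ⊕ Fin m → F) := by
    refine ⟨fun c k v => ?_⟩
    rw [hsmul, hsmul, map_smul, smul_mulVec]
  have instF : Module.Finite E (Fin m ⊕ Fin m → F) := Module.Finite.of_restrictScalars_finite F E _
  obtain ⟨ℓ, hℓ⟩ : ∃ ℓ : E →ₗ[F] F, ℓ ≠ 0 := exists_ne 0
  obtain ⟨φ, hφ, hφa⟩ := exists_phi (V := Fin m ⊕ Fin m → F) hℓ (sympForm m F)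
    sympForm_add_left sympForm_add_right sympForm_smul_left
    (fun k x y => by rw [hsmul, hsmul]; exact hsa _ _ _) (fun k x => by rw [hsmul]; exact halt _ _)
  have hdim := Module.finrank_mul_finrank F E (Fin m ⊕ Fin m → F)
  rw [Module.finrank_fintype_fun_eq_card, Fintype.card_sum, Fintype.card_fin] at hdim
  have hnd : ∀ u, (∀ v, φ u v = 0) → u = 0 := by
    intro u hu
    refine eq_zero_of_forall_sympForm_right fun v => ?_
    rw [← hφ, hu, map_zero]
  obtain ⟨k, hk⟩ : ∃ k, finrank E (Fin m ⊕ Fin m → F) = 2 * k := by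
    obtain ⟨a, l, b, h1, h2, h3, h4⟩ := Cfsg.Agent.S0752.result φ hφa
    have hl : l = 0 := by
      by_contra hl
      have := hnd _ (h4 ⟨0, Nat.pos_of_ne_zero hl⟩)
      exact b.ne_zero _ this
    subst hl
    refine ⟨a, ?_⟩
    have := Module.finrank_eq_card_basis b
    simp at this
    omega
  obtain ⟨e, he⟩ := Cfsg.Agent.ClassicalGeometry.SympIso.exists_linearEquiv_sympForm φ hφa hnd hk
  refine ⟨k, ⟨ρ, ℓ, e.restrictScalars F, hℓ, ?_, ?_⟩, rfl, ?_⟩
  · intro a x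
    show e (a • x) = ρ a *ᵥ e x
    rw [map_smul, hsmul]
  · intro x y
    show sympForm m F (e x) (e y) = ℓ (sympForm k E x y)
    rw [← he, hφ]
  · rw [hk] at hdim
    have : 2 * (finrank F E * k) = 2 * m := by
      calc 2 * (finrank F E * k) = finrank F E * (2 * k) := by ring
        _ = m + m := hdim
        _ = 2 * m := by ring
    omega

/-- existence of the coordinates -/
theorem exists_cd {K : Subalgebra F (Matrix (Fin m ⊕ Fin m) (Fin m ⊕ Fin m) F)} (hm : 1 ≤ m) (hs : 1 ≤ s) (hK : IsFieldSubalgebra s K)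
    (hsa : IsSelfAdjointFor (sympForm m F) K) (halt : ∀ k ∈ K, ∀ v, sympForm m F (k *ᵥ v) v = 0) :
    ∃ (E : Type u) (_ : Field E) (_ : Fintype E) (_ : Algebra F E) (n : ℕ) (c : Cd m F E n),
      finrank F E = s ∧ c.ρ.range = K ∧ s * n = m := by
  have hne : Nonempty (Fin m ⊕ Fin m) := ⟨Sum.inl ⟨0, by omega⟩⟩
  obtain ⟨E, hE, hA, ρ, rfl, hfr⟩ := Cfsg.Agent.H954.FieldSub.exists_field hK
  have : FiniteDimensional F E := Module.finite_of_finrank_pos (by omega)
  have hfin : Finite E := Module.finite_of_finite F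
  obtain ⟨n, c, hc, hn⟩ := exists_cd' hm ρ (fun k x y => hsa _ ⟨k, rfl⟩ x y) (fun k x => halt _ ⟨k, rfl⟩ x)
  exact ⟨E, hE, Fintype.ofFinite E, hA, n, c, hfr, by rw [hc], by rw [← hfr]; exact hn⟩

namespace Cd

variable {E : Type v} [Field E] [Algebra F E] (c : Cd m F E n)

/-- the matrix over `F` of a matrix over `E` -/
noncomputable def mat : Matrix (Fin n ⊕ Fin n) (Fin n ⊕ Fin n) E →* Matrix (Fin m ⊕ Fin m) (Fin m ⊕ Fin m) F where
  toFun A := LinearMap.toMatrix' (c.e.toLinearMap ∘ₗ ((Matrix.toLin' A).restrictScalars F) ∘ₗ c.e.symm.toLinearMap)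
  map_one' := by
    apply eq_of_mulVec
    intro x
    rw [LinearMap.toMatrix'_mulVec]
    simp
  map_mul' A B := by
    apply eq_of_mulVec
    intro x
    rw [← mulVec_mulVec, LinearMap.toMatrix'_mulVec, LinearMap.toMatrix'_mulVec, LinearMap.toMatrix'_mulVec]
    simp [mulVec_mulVec]

theorem mat_mulVec (A : Matrix (Fin n ⊕ Fin n) (Fin n ⊕ Fin n) E) (x : Fin n ⊕ Fin n → E) :
    c.mat A *ᵥ c.e x = c.e (A *ᵥ x) := by
  show LinearMap.toMatrix' _ *ᵥ _ = _
  rw [LinearMap.toMatrix'_mulVec]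
  simp

/-- the restriction of scalars -/
noncomputable def Psi : GL (Fin n ⊕ Fin n) E →* GL (Fin m ⊕ Fin m) F := Units.map c.mat

theorem Psi_mulVec (A : GL (Fin n ⊕ Fin n) E) (x : Fin n ⊕ Fin n → E) :
    (c.Psi A : Matrix _ _ F) *ᵥ c.e x = c.e ((A : Matrix _ _ E) *ᵥ x) := c.mat_mulVec _ x

theorem Psi_injective : Function.Injective c.Psi := by
  intro A B h
  apply Units.ext
  apply eq_of_mulVec
  intro x
  apply c.e.injective
  rw [← c.Psi_mulVec, ← c.Psi_mulVec, h]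

theorem mem_spGL {k : ℕ} {L : Type*} [Field L] {g : GL (Fin k ⊕ Fin k) L} :
    g ∈ spGL k L ↔ ∀ x y, sympForm k L ((g : Matrix _ _ L) *ᵥ x) ((g : Matrix _ _ L) *ᵥ y) = sympForm k L x y := Iff.rfl

theorem Psi_mem {A : GL (Fin n ⊕ Fin n) E} : c.Psi A ∈ spGL m F ↔ A ∈ spGL n E := by
  rw [mem_spGL, mem_spGL]
  constructor
  · intro h x y
    apply ell_ext c.ne
    intro k
    have h1 := h (c.e (k • x)) (c.e y)
    rw [c.Psi_mulVec, c.Psi_mulVec, c.form, c.form, mulVec_smul, sympForm_smul_left, sympForm_smul_left] at h1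
    exact h1
  · intro h x y
    obtain ⟨x, rfl⟩ := c.e.surjective x
    obtain ⟨y, rfl⟩ := c.e.surjective y
    rw [c.Psi_mulVec, c.Psi_mulVec, c.form, c.form, h]

theorem Psi_comm (A : GL (Fin n ⊕ Fin n) E) (k : E) :
    (c.Psi A : Matrix _ _ F) * c.ρ k = c.ρ k * (c.Psi A : Matrix _ _ F) := by
  apply eq_of_mulVec
  intro x
  obtain ⟨x, rfl⟩ := c.e.surjective x
  rw [← mulVec_mulVec, ← c.smul, c.Psi_mulVec, mulVec_smul, c.smul, ← c.Psi_mulVec, mulVec_mulVec]

theorem exists_Psi {g : GL (Fin m ⊕ Fin m) F} (hg : ∀ k, (g : Matrix _ _ F) * c.ρ k = c.ρ k * (g : Matrix _ _ F)) :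
    ∃ A, c.Psi A = g := by
  let L : (Fin n ⊕ Fin n → E) →ₗ[E] (Fin n ⊕ Fin n → E) :=
    { toFun := fun x => c.e.symm ((g : Matrix _ _ F) *ᵥ c.e x)
      map_add' := fun x y => by rw [map_add, mulVec_add, map_add]
      map_smul' := fun k x => by
        apply c.e.injective
        rw [LinearEquiv.apply_symm_apply, c.smul, mulVec_mulVec, hg, RingHom.id_apply, c.smul,
          LinearEquiv.apply_symm_apply, mulVec_mulVec] }
  have hLinj : Function.Injective L := by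
    intro x y hxy
    have h1 : c.e.symm ((g : Matrix _ _ F) *ᵥ c.e x) = c.e.symm ((g : Matrix _ _ F) *ᵥ c.e y) := hxy
    have h2 := c.e.symm.injective h1
    have h3 := congrArg (fun v => ((g⁻¹ : GL (Fin m ⊕ Fin m) F) : Matrix (Fin m ⊕ Fin m) (Fin m ⊕ Fin m) F) *ᵥ v) h2
    simp only [Matrix.mulVec_mulVec, ← Units.val_mul, inv_mul_cancel, Units.val_one, Matrix.one_mulVec] at h3
    exact c.e.injective h3
  have hM : IsUnit (LinearMap.toMatrix' L) := by
    rw [LinearMap.isUnit_toMatrix'_iff, LinearMap.isUnit_iff_ker_eq_bot, LinearMap.ker_eq_bot]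
    exact hLinj
  obtain ⟨A, hA⟩ := hM
  refine ⟨A, Units.ext (eq_of_mulVec fun x => ?_)⟩
  obtain ⟨x, rfl⟩ := c.e.surjective x
  rw [c.Psi_mulVec, hA, LinearMap.toMatrix'_mulVec]
  exact LinearEquiv.apply_symm_apply _ _

theorem card_spGL : Nat.card ((spGL n E).map c.Psi) = Nat.card (spGL n E) :=
  Subgroup.card_map_of_injective c.Psi_injective

variable [Fintype E]

/-- a subgroup of the normaliser: the part over `E` has index dividing the degree -/
theorem card_dvd {R : Subgroup (GL (Fin m ⊕ Fin m) F)} (hm : 1 ≤ m) (hR : R ≤ subalgebraNormalizer c.ρ.range) :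
    ∃ j, j ∣ finrank F E ∧ Nat.card R = j * Nat.card (R.comap c.Psi) := by
  classical
  have hne : Nonempty (Fin m ⊕ Fin m) := ⟨Sum.inl ⟨0, by omega⟩⟩
  have hfinE : FiniteDimensional F E := Module.Finite.of_finite
  have hex : ∀ g : R, ∃ σ : E ≃ₐ[F] E, ∀ k, ((g : GL (Fin m ⊕ Fin m) F) : Matrix (Fin m ⊕ Fin m) (Fin m ⊕ Fin m) F) * c.ρ k = c.ρ (σ k) * ((g : GL (Fin m ⊕ Fin m) F) : Matrix (Fin m ⊕ Fin m) (Fin m ⊕ Fin m) F) :=
    fun g => exists_sigma (conjHom_of_mem_normalizer (hR g.2))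
  choose σ hσ using hex
  have hρ : Function.Injective c.ρ := c.ρ.toRingHom.injective
  have huniq : ∀ (g : R) (τ : E ≃ₐ[F] E), (∀ k, ((g : GL (Fin m ⊕ Fin m) F) : Matrix (Fin m ⊕ Fin m) (Fin m ⊕ Fin m) F) * c.ρ k = c.ρ (τ k) * ((g : GL (Fin m ⊕ Fin m) F) : Matrix (Fin m ⊕ Fin m) (Fin m ⊕ Fin m) F)) →
      σ g = τ := by
    intro g τ h
    ext k
    apply hρ
    have h1 := (hσ g k).symm.trans (h k)
    have h2 := congrArg (fun M => M * (((g : GL (Fin m ⊕ Fin m) F)⁻¹ : GL (Fin m ⊕ Fin m) F) : Matrix (Fin m ⊕ Fin m) (Fin m ⊕ Fin m) F)) h1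
    simp only [mul_assoc, ← Units.val_mul, mul_inv_cancel, Units.val_one, mul_one] at h2
    exact h2
  let τ : R →* (E ≃ₐ[F] E) := MonoidHom.mk' σ (by
    intro a b
    apply huniq
    intro k
    rw [Subgroup.coe_mul, Units.val_mul, mul_assoc, hσ b, ← mul_assoc, hσ a, mul_assoc]
    rfl)
  refine ⟨Nat.card τ.range, ?_, ?_⟩
  · have h1 := Subgroup.card_subgroup_dvd_card τ.range
    rwa [IsGalois.card_aut_eq_finrank] at h1
  · have h1 : Nat.card R = Nat.card τ.range * Nat.card τ.ker := by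
      rw [← Subgroup.index_ker, mul_comm, Subgroup.card_mul_index]
    rw [h1]
    congr 1
    have h2 : τ.ker.map R.subtype = (R.comap c.Psi).map c.Psi := by
      ext g
      constructor
      · rintro ⟨a, ha, rfl⟩
        have ha' : σ a = 1 := ha
        obtain ⟨A, hA⟩ := c.exists_Psi (g := (a : GL (Fin m ⊕ Fin m) F)) (fun k => by rw [hσ a, ha']; rfl)
        refine ⟨A, ?_, hA⟩
        show c.Psi A ∈ R
        rw [hA]; exact a.2
      · rintro ⟨A, hA, rfl⟩
        refine ⟨⟨c.Psi A, hA⟩, ?_, rfl⟩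
        show σ _ = 1
        apply huniq
        intro k
        exact c.Psi_comm A k
    rw [← Subgroup.card_map_of_injective (K := τ.ker) R.subtype_injective, h2,
      Subgroup.card_map_of_injective c.Psi_injective]

end Cd

end Cfsg.Agent.H402.Rg
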