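import Cfsg.Agent.H402.Rg.Fld

/-!
# Frames for the symplectic space: a hyperbolic pair and coordinates of its orthogonal space
-/

set_option autoImplicit false
set_option linter.unusedSectionVars false

namespace Cfsg.Agent.H402.Rg

open Module Matrix Cfsg Cfsg.Geo
open scoped MatrixGroups Matrix
open Cfsg.Agent.ClassicalGeometry.SympBasic

variable {k m : ℕ} {F : Type*} [Field F]

/-- a frame -/
structure Fr (k m : ℕ) (F : Type*) [Field F] where
  u : Fin m ⊕ Fin m → F
  v : Fin m ⊕ Fin m → F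
  ι : (Fin k ⊕ Fin k → F) →ₗ[F] (Fin m ⊕ Fin m → F)
  π : (Fin m ⊕ Fin m → F) →ₗ[F] (Fin k ⊕ Fin k → F)
  uv : sympForm m F u v = 1
  uι : ∀ x, sympForm m F u (ι x) = 0
  vι : ∀ x, sympForm m F v (ι x) = 0
  form : ∀ x y, sympForm m F (ι x) (ι y) = sympForm k F x y
  dec : ∀ x, x = sympForm m F x v • u + sympForm m F u x • v + ι (π x)

/-- existence of frames -/
theorem exists_fr (hm : m = k + 1) {u v : Fin m ⊕ Fin m → F} (huv : sympForm m F u v = 1) :
    ∃ fr : Fr k m F, fr.u = u ∧ fr.v = v := by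
  classical
  let B := sympBilin m F
  let T : (Fin m ⊕ Fin m → F) →ₗ[F] (Fin 2 → F) := LinearMap.pi ![B u, B v]
  have hT : ∀ x, T x = ![sympForm m F u x, sympForm m F v x] := by
    intro x
    ext i
    fin_cases i <;> rfl
  have hvu : sympForm m F v u = -1 := by rw [sympForm_swap, huv]
  have hTs : Function.Surjective T := by
    intro w
    refine ⟨-(w 1) • u + w 0 • v, ?_⟩
    rw [hT]
    ext i
    fin_cases i
    · simp [sympForm_add_right, sympForm_smul_right, sympForm_neg_right, huv]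
    · simp [sympForm_add_right, sympForm_smul_right, sympForm_neg_right, hvu]
  set L : Submodule F (Fin m ⊕ Fin m → F) := LinearMap.ker T with hL
  have hLm : ∀ x, x ∈ L ↔ sympForm m F u x = 0 ∧ sympForm m F v x = 0 := by
    intro x
    rw [hL, LinearMap.mem_ker, hT]
    constructor
    · intro h
      exact ⟨congrFun h 0, congrFun h 1⟩
    · rintro ⟨h1, h2⟩
      ext i
      fin_cases i
      · exact h1
      · exact h2
  have hfr : finrank F L = 2 * k := by
    have h1 := LinearMap.finrank_range_add_finrank_ker T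
    rw [LinearMap.range_eq_top.2 hTs, finrank_top, Module.finrank_fintype_fun_eq_card,
      Module.finrank_fintype_fun_eq_card, Fintype.card_fin, Fintype.card_sum, Fintype.card_fin, ← hL] at h1
    omega
  have hpr : ∀ x, x - sympForm m F x v • u - sympForm m F u x • v ∈ L := by
    intro x
    rw [hLm]
    have e : sympForm m F v x = - sympForm m F x v := sympForm_swap _ _
    simp only [sympForm_sub_right, sympForm_smul_right, huv, hvu, sympForm_self, e]
    constructor <;> ring
  obtain ⟨e, he⟩ := Cfsg.Agent.ClassicalGeometry.SympIso.exists_linearEquiv_sympForm (V := L) (B.domRestrict₁₂ L L)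
    (fun x => sympForm_self (x : Fin m ⊕ Fin m → F)) (by
      intro x hx
      apply Subtype.ext
      refine eq_zero_of_forall_sympForm_right fun z => ?_
      have h1 := hx ⟨_, hpr z⟩
      have h2 : sympForm m F (x : Fin m ⊕ Fin m → F) (z - sympForm m F z v • u - sympForm m F u z • v) = 0 := h1
      have h3 := (hLm x).1 x.2
      rw [sympForm_sub_right, sympForm_sub_right, sympForm_smul_right, sympForm_smul_right,
        sympForm_swap (x : Fin m ⊕ Fin m → F) u, sympForm_swap (x : Fin m ⊕ Fin m → F) v, h3.1, h3.2] at h2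
      simpa using h2) hfr
  let pr : (Fin m ⊕ Fin m → F) →ₗ[F] L :=
    { toFun := fun x => ⟨_, hpr x⟩
      map_add' := fun x y => by
        apply Subtype.ext
        show (x + y) - _ - _ = (x - _ - _) + (y - _ - _)
        rw [sympForm_add_left, sympForm_add_right, add_smul, add_smul]
        abel
      map_smul' := fun c x => by
        apply Subtype.ext
        show (c • x) - _ - _ = c • (x - _ - _)
        rw [sympForm_smul_left, sympForm_smul_right, smul_sub, smul_sub, smul_smul, smul_smul] }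
  refine ⟨⟨u, v, L.subtype ∘ₗ e.toLinearMap, e.symm.toLinearMap ∘ₗ pr, huv, ?_, ?_, ?_, ?_⟩, rfl, rfl⟩
  · intro x
    exact ((hLm _).1 (e x).2).1
  · intro x
    exact ((hLm _).1 (e x).2).2
  · intro x y
    exact he x y
  · intro x
    show x = _ + ((e (e.symm (pr x)) : L) : Fin m ⊕ Fin m → F)
    rw [LinearEquiv.apply_symm_apply]
    show x = _ + (x - _ - _)
    abel

theorem exists_pair {u : Fin m ⊕ Fin m → F} (hu : u ≠ 0) : ∃ v, sympForm m F u v = 1 := by
  by_contra h
  push Not at h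
  apply hu
  refine eq_zero_of_forall_sympForm_right fun w => ?_
  by_contra hw
  apply h ((sympForm m F u w)⁻¹ • w)
  rw [sympForm_smul_right, inv_mul_cancel₀ hw]

theorem exists_fr' (hm : m = k + 1) {u : Fin m ⊕ Fin m → F} (hu : u ≠ 0) : ∃ fr : Fr k m F, fr.u = u := by
  obtain ⟨v, hv⟩ := exists_pair hu
  obtain ⟨fr, h, -⟩ := exists_fr hm hv
  exact ⟨fr, h⟩

namespace Fr

variable (fr : Fr k m F)

theorem vu : sympForm m F fr.v fr.u = -1 := by rw [sympForm_swap, fr.uv]

theorem ιu (x) : sympForm m F (fr.ι x) fr.u = 0 := by rw [sympForm_swap, fr.uι, neg_zero]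

theorem ιv (x) : sympForm m F (fr.ι x) fr.v = 0 := by rw [sympForm_swap, fr.vι, neg_zero]

theorem ι_inj : Function.Injective fr.ι := by
  rw [← LinearMap.ker_eq_bot, LinearMap.ker_eq_bot']
  intro x hx
  refine eq_zero_of_forall_sympForm_right fun y => ?_
  rw [← fr.form, hx, sympForm_zero_left]

theorem πι (y) : fr.π (fr.ι y) = y := by
  apply fr.ι_inj
  have h := fr.dec (fr.ι y)
  rw [fr.ιv, fr.uι, zero_smul, zero_smul, zero_add, zero_add] at h
  exact h.symm

theorem πu : fr.π fr.u = 0 := by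
  apply fr.ι_inj
  have h := fr.dec fr.u
  rw [fr.uv, sympForm_self, one_smul, zero_smul, add_zero] at h
  rw [map_zero]
  exact left_eq_add.1 h

theorem πv : fr.π fr.v = 0 := by
  apply fr.ι_inj
  have h := fr.dec fr.v
  rw [sympForm_self, fr.uv, one_smul, zero_smul, zero_add] at h
  rw [map_zero]
  exact left_eq_add.1 h

theorem form_π (y x) : sympForm m F (fr.ι y) x = sympForm k F y (fr.π x) := by
  conv_lhs => rw [fr.dec x]
  rw [sympForm_add_right, sympForm_add_right, sympForm_smul_right, sympForm_smul_right, fr.ιu, fr.ιv, fr.form]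
  ring

theorem u_ne : fr.u ≠ 0 := by
  intro h
  have := fr.uv
  rw [h, sympForm_zero_left] at this
  exact zero_ne_one this

/-- the compression -/
noncomputable def cmp : Matrix (Fin m ⊕ Fin m) (Fin m ⊕ Fin m) F → Matrix (Fin k ⊕ Fin k) (Fin k ⊕ Fin k) F :=
  fun g => LinearMap.toMatrix' (fr.π ∘ₗ (Matrix.toLin' g) ∘ₗ fr.ι)

theorem cmp_mulVec (g) (y) : fr.cmp g *ᵥ y = fr.π (g *ᵥ fr.ι y) := by
  unfold cmp
  rw [LinearMap.toMatrix'_mulVec]
  simp

/-- the condition for the compression to be multiplicative -/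
def Ok (G : Subgroup (GL (Fin m ⊕ Fin m) F)) : Prop :=
  G ≤ spGL m F ∧ ∀ g ∈ G, fr.π ((g : Matrix _ _ F) *ᵥ fr.u) = 0 ∧
    ∀ y, sympForm m F fr.u ((g : Matrix _ _ F) *ᵥ fr.ι y) = 0

variable {fr} {G : Subgroup (GL (Fin m ⊕ Fin m) F)}

theorem ok_dec (hG : fr.Ok G) {g : GL (Fin m ⊕ Fin m) F} (hg : g ∈ G) (y) :
    (g : Matrix _ _ F) *ᵥ fr.ι y =
      sympForm m F ((g : Matrix _ _ F) *ᵥ fr.ι y) fr.v • fr.u + fr.ι (fr.cmp (g : Matrix _ _ F) *ᵥ y) := by
  conv_lhs => rw [fr.dec ((g : Matrix _ _ F) *ᵥ fr.ι y)]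
  rw [(hG.2 g hg).2, zero_smul, add_zero, fr.cmp_mulVec]

/-- the compression as a homomorphism -/
noncomputable def rho (fr : Fr k m F) {G : Subgroup (GL (Fin m ⊕ Fin m) F)} (hG : fr.Ok G) : G →* GL (Fin k ⊕ Fin k) F :=
  MonoidHom.toHomUnits
    { toFun := fun g => fr.cmp ((g : GL (Fin m ⊕ Fin m) F) : Matrix _ _ F)
      map_one' := by
        apply eq_of_mulVec
        intro y
        rw [fr.cmp_mulVec, one_mulVec, Subgroup.coe_one, Units.val_one, one_mulVec, fr.πι]
      map_mul' := fun g h => by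
        apply eq_of_mulVec
        intro y
        rw [← mulVec_mulVec, fr.cmp_mulVec, Subgroup.coe_mul, Units.val_mul, ← mulVec_mulVec, ok_dec hG h.2,
          mulVec_add, mulVec_smul, map_add, map_smul, (hG.2 _ g.2).1, smul_zero, zero_add, ← fr.cmp_mulVec] }

theorem rho_mulVec (hG : fr.Ok G) (g : G) (y) :
    ((fr.rho hG g : GL (Fin k ⊕ Fin k) F) : Matrix _ _ F) *ᵥ y = fr.π (((g : GL (Fin m ⊕ Fin m) F) : Matrix _ _ F) *ᵥ fr.ι y) :=
  fr.cmp_mulVec _ _

theorem rho_mem (hG : fr.Ok G) (g : G) : fr.rho hG g ∈ spGL k F := by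
  rw [Cd.mem_spGL]
  intro x y
  rw [rho_mulVec, rho_mulVec, ← fr.form]
  have h1 := ok_dec hG g.2 x
  have h2 := ok_dec hG g.2 y
  rw [fr.cmp_mulVec] at h1 h2
  have h3 := (Cd.mem_spGL.1 (hG.1 g.2)) (fr.ι x) (fr.ι y)
  rw [h1, h2, sympForm_add_left, sympForm_add_right, sympForm_add_right, sympForm_smul_left, sympForm_smul_left,
    sympForm_smul_right, sympForm_smul_right, sympForm_self, fr.uι, fr.ιu, fr.form x y] at h3
  rw [← h3]
  ring

end Fr

end Cfsg.Agent.H402.Rg
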