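import Cfsg.Agent.H402.Rg.Par

/-!
# Counting in the stabiliser of a point of the symplectic space
-/

set_option autoImplicit false
set_option linter.unusedSectionVars false

namespace Cfsg.Agent.H402.Rg

open Module Matrix Cfsg Cfsg.Geo
open scoped MatrixGroups Matrix
open Cfsg.Agent.ClassicalGeometry.SympBasic

variable {k m : ℕ} {F : Type*} [Field F]

theorem card_fib {G H : Type*} [Group G] [Group H] {Γ A : Subgroup G} (hA : A ≤ Γ) (f : Γ →* H)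
    (h : ∀ g : Γ, f g = 1 ↔ (g : G) ∈ A) : Nat.card Γ = Nat.card f.range * Nat.card A := by
  have h1 : Nat.card Γ = Nat.card f.range * Nat.card f.ker := by
    rw [← Subgroup.index_ker, mul_comm, Subgroup.card_mul_index]
  rw [h1]
  congr 1
  refine Nat.card_congr ⟨fun x => ⟨x.1, (h x.1).1 x.2⟩, fun x => ⟨⟨x.1, hA x.2⟩, (h _).2 x.2⟩, fun x => rfl, fun x => rfl⟩

/-- the transvections with centre `u` in `Y` -/
def TA (Y : Subgroup (GL (Fin m ⊕ Fin m) F)) (u : Fin m ⊕ Fin m → F) : AddSubgroup F where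
  carrier := {a | ∃ g ∈ Y, ∀ x, (g : Matrix _ _ F) *ᵥ x = x + (a * sympForm m F u x) • u}
  zero_mem' := ⟨1, Y.one_mem, fun x => by rw [Units.val_one, one_mulVec, zero_mul, zero_smul, add_zero]⟩
  add_mem' := by
    rintro a b ⟨g, hg, h1⟩ ⟨h, hh, h2⟩
    refine ⟨g * h, Y.mul_mem hg hh, fun x => ?_⟩
    rw [Units.val_mul, ← mulVec_mulVec, h2, h1, sympForm_add_right, sympForm_smul_right, sympForm_self]
    module
  neg_mem' := by
    rintro a ⟨g, hg, h1⟩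
    refine ⟨g⁻¹, Y.inv_mem hg, fun x => ?_⟩
    have h2 := h1 (x + (-a * sympForm m F u x) • u)
    rw [sympForm_add_right, sympForm_smul_right, sympForm_self] at h2
    have h3 : (g : Matrix (Fin m ⊕ Fin m) (Fin m ⊕ Fin m) F) *ᵥ (x + (-a * sympForm m F u x) • u) = x := by
      rw [h2]
      module
    conv_lhs => rw [← h3]
    rw [mulVec_mulVec, ← Units.val_mul, inv_mul_cancel, Units.val_one, one_mulVec]

theorem mem_TA {Y : Subgroup (GL (Fin m ⊕ Fin m) F)} {u : Fin m ⊕ Fin m → F} {a : F} :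
    a ∈ TA Y u ↔ ∃ g ∈ Y, ∀ x, (g : Matrix _ _ F) *ᵥ x = x + (a * sympForm m F u x) • u := Iff.rfl

theorem TA_mono {Y Z : Subgroup (GL (Fin m ⊕ Fin m) F)} (h : Y ≤ Z) (u : Fin m ⊕ Fin m → F) : TA Y u ≤ TA Z u :=
  fun _ ⟨g, hg, h1⟩ => ⟨g, h hg, h1⟩

theorem inv_mulVec {κ : Type*} [Fintype κ] [DecidableEq κ] (g : GL κ F) (x : κ → F) :
    (g : Matrix κ κ F) *ᵥ (((g⁻¹ : GL κ F) : Matrix κ κ F) *ᵥ x) = x := by
  rw [mulVec_mulVec, ← Units.val_mul, mul_inv_cancel, Units.val_one, one_mulVec]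

theorem inv_mulVec' {κ : Type*} [Fintype κ] [DecidableEq κ] (g : GL κ F) (x : κ → F) :
    ((g⁻¹ : GL κ F) : Matrix κ κ F) *ᵥ ((g : Matrix κ κ F) *ᵥ x) = x := by
  rw [mulVec_mulVec, ← Units.val_mul, inv_mul_cancel, Units.val_one, one_mulVec]

/-- conjugation -/
theorem TA_conj {Y : Subgroup (GL (Fin m ⊕ Fin m) F)} (hY : Y ≤ spGL m F) {u : Fin m ⊕ Fin m → F}
    {y : GL (Fin m ⊕ Fin m) F} (hy : y ∈ Y) : TA Y u ≤ TA Y ((y : Matrix _ _ F) *ᵥ u) := by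
  rintro a ⟨g, hg, h1⟩
  refine ⟨y * g * y⁻¹, Y.mul_mem (Y.mul_mem hy hg) (Y.inv_mem hy), fun x => ?_⟩
  have h2 := (Cd.mem_spGL.1 (hY hy)) u (((y⁻¹ : GL (Fin m ⊕ Fin m) F) : Matrix _ _ F) *ᵥ x)
  rw [inv_mulVec] at h2
  rw [Units.val_mul, Units.val_mul, ← mulVec_mulVec, ← mulVec_mulVec, h1, mulVec_add, inv_mulVec, mulVec_smul, h2]

/-- scalar multiples of the centre -/
theorem TA_smul {Y : Subgroup (GL (Fin m ⊕ Fin m) F)} {u : Fin m ⊕ Fin m → F} {c a : F} (hc : c ≠ 0)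
    (ha : a ∈ TA Y u) : a * (c⁻¹ * c⁻¹) ∈ TA Y (c • u) := by
  obtain ⟨g, hg, h1⟩ := ha
  refine ⟨g, hg, fun x => ?_⟩
  rw [h1, sympForm_smul_left, smul_smul]
  congr 2
  field_simp

namespace Fr

variable (fr : Fr k m F)

/-- the condition for the stabiliser of the point -/
def Par (G : Subgroup (GL (Fin m ⊕ Fin m) F)) : Prop :=
  G ≤ spGL m F ∧ ∀ g ∈ G, ∃ c : F, (g : Matrix _ _ F) *ᵥ fr.u = c • fr.u

variable {fr} {G : Subgroup (GL (Fin m ⊕ Fin m) F)}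

theorem Par.mono {H : Subgroup (GL (Fin m ⊕ Fin m) F)} (h : fr.Par G) (hH : H ≤ G) : fr.Par H :=
  ⟨hH.trans h.1, fun g hg => h.2 g (hH hg)⟩

theorem Par.smul_u (h : fr.Par G) {g : GL (Fin m ⊕ Fin m) F} (hg : g ∈ G) :
    (g : Matrix _ _ F) *ᵥ fr.u = sympForm m F ((g : Matrix _ _ F) *ᵥ fr.u) fr.v • fr.u := by
  obtain ⟨c, hc⟩ := h.2 g hg
  rw [hc, sympForm_smul_left, fr.uv, mul_one]

theorem Par.c_ne (h : fr.Par G) {g : GL (Fin m ⊕ Fin m) F} (hg : g ∈ G) {c : F}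
    (hc : (g : Matrix _ _ F) *ᵥ fr.u = c • fr.u) : c ≠ 0 := by
  rintro rfl
  rw [zero_smul] at hc
  apply fr.u_ne
  rw [← inv_mulVec' g fr.u, hc, mulVec_zero]

theorem Par.ok (h : fr.Par G) : fr.Ok G := by
  refine ⟨h.1, fun g hg => ?_⟩
  obtain ⟨c, hc⟩ := h.2 g hg
  refine ⟨by rw [hc, map_smul, fr.πu, smul_zero], fun y => ?_⟩
  have h1 := (Cd.mem_spGL.1 (h.1 hg)) fr.u (fr.ι y)
  rw [hc, sympForm_smul_left, fr.uι] at h1
  exact (mul_eq_zero.1 h1).resolve_left (h.c_ne hg hc)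

/-- the kernel of the compression -/
noncomputable def K0 (h : fr.Par G) : Subgroup (GL (Fin m ⊕ Fin m) F) := (fr.rho h.ok).ker.map G.subtype

theorem mem_K0 (h : fr.Par G) {g : GL (Fin m ⊕ Fin m) F} :
    g ∈ K0 h ↔ g ∈ G ∧ ∀ y, fr.π ((g : Matrix _ _ F) *ᵥ fr.ι y) = y := by
  constructor
  · rintro ⟨x, hx, rfl⟩
    refine ⟨x.2, fun y => ?_⟩
    have h1 : fr.rho h.ok x = 1 := hx
    have h2 := rho_mulVec h.ok x y
    rw [h1, Units.val_one, one_mulVec] at h2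
    exact h2.symm
  · rintro ⟨hg, h1⟩
    refine ⟨⟨g, hg⟩, ?_, rfl⟩
    show fr.rho h.ok ⟨g, hg⟩ = 1
    apply Units.ext
    apply eq_of_mulVec
    intro y
    rw [rho_mulVec, Units.val_one, one_mulVec]
    exact h1 y

/-- the scalar -/
noncomputable def cc (h : fr.Par G) : G →* Fˣ := MonoidHom.toHomUnits
  { toFun := fun g => sympForm m F (((g : GL (Fin m ⊕ Fin m) F) : Matrix _ _ F) *ᵥ fr.u) fr.v
    map_one' := by rw [Subgroup.coe_one, Units.val_one, one_mulVec, fr.uv]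
    map_mul' := fun g g' => by
      rw [Subgroup.coe_mul, Units.val_mul, ← mulVec_mulVec, h.smul_u g'.2, mulVec_smul, sympForm_smul_left,
        sympForm_smul_left, fr.uv, mul_one, mul_comm] }

theorem cc_smul (h : fr.Par G) (g : G) :
    ((g : GL (Fin m ⊕ Fin m) F) : Matrix _ _ F) *ᵥ fr.u = (cc h g : F) • fr.u := h.smul_u g.2

/-- the unipotent radical -/
noncomputable def Q (h : fr.Par G) : Subgroup (GL (Fin m ⊕ Fin m) F) := ((fr.rho h.ok).ker ⊓ (cc h).ker).map G.subtype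

theorem mem_Q (h : fr.Par G) {g : GL (Fin m ⊕ Fin m) F} :
    g ∈ Q h ↔ g ∈ G ∧ (g : Matrix _ _ F) *ᵥ fr.u = fr.u ∧ ∀ y, fr.π ((g : Matrix _ _ F) *ᵥ fr.ι y) = y := by
  constructor
  · rintro ⟨x, ⟨hx, hx'⟩, rfl⟩
    have h1 : (x : GL (Fin m ⊕ Fin m) F) ∈ K0 h := ⟨x, hx, rfl⟩
    refine ⟨x.2, ?_, ((mem_K0 h).1 h1).2⟩
    have h2 : cc h x = 1 := hx'
    have h3 := cc_smul h x
    rwa [h2, Units.val_one, one_smul] at h3
  · rintro ⟨hg, h1, h2⟩
    have h3 : g ∈ K0 h := (mem_K0 h).2 ⟨hg, h2⟩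
    obtain ⟨x, hx, rfl⟩ := h3
    refine ⟨x, ⟨hx, ?_⟩, rfl⟩
    show cc h x = 1
    apply Units.ext
    show sympForm m F (((x : GL (Fin m ⊕ Fin m) F) : Matrix _ _ F) *ᵥ fr.u) fr.v = 1
    have h1' : ((x : GL (Fin m ⊕ Fin m) F) : Matrix _ _ F) *ᵥ fr.u = fr.u := h1
    rw [h1', fr.uv]

theorem Q_le (h : fr.Par G) : Q h ≤ G := fun _ hg => ((mem_Q h).1 hg).1

theorem Q_v (h : fr.Par G) {g : GL (Fin m ⊕ Fin m) F} (hg : g ∈ Q h) :
    (g : Matrix _ _ F) *ᵥ fr.v =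
      sympForm m F ((g : Matrix _ _ F) *ᵥ fr.v) fr.v • fr.u + fr.v + fr.ι (fr.π ((g : Matrix _ _ F) *ᵥ fr.v)) := by
  obtain ⟨hg1, hg2, hg3⟩ := (mem_Q h).1 hg
  conv_lhs => rw [fr.dec ((g : Matrix _ _ F) *ᵥ fr.v)]
  have h1 := (Cd.mem_spGL.1 (h.1 hg1)) fr.u fr.v
  rw [hg2, fr.uv] at h1
  rw [h1, one_smul]

theorem Q_ι (h : fr.Par G) {g : GL (Fin m ⊕ Fin m) F} (hg : g ∈ Q h) (y) :
    (g : Matrix _ _ F) *ᵥ fr.ι y = sympForm k F (fr.π ((g : Matrix _ _ F) *ᵥ fr.v)) y • fr.u + fr.ι y := by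
  obtain ⟨hg1, hg2, hg3⟩ := (mem_Q h).1 hg
  have h1 := ok_dec h.ok hg1 y
  rw [fr.cmp_mulVec, hg3] at h1
  have h2 := (Cd.mem_spGL.1 (h.1 hg1)) fr.v (fr.ι y)
  rw [fr.vι] at h2
  have h3 := Q_v h hg
  rw [h1, h3, sympForm_add_right, sympForm_add_left, sympForm_add_left, sympForm_add_left, sympForm_add_left,
    sympForm_smul_left, sympForm_smul_left, sympForm_smul_right, sympForm_smul_right, sympForm_smul_right, sympForm_self,
    fr.vu, fr.uι, fr.vι, fr.ιu, fr.form] at h2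
  have h4 : sympForm m F ((g : Matrix _ _ F) *ᵥ fr.ι y) fr.v = sympForm k F (fr.π ((g : Matrix _ _ F) *ᵥ fr.v)) y := by
    linear_combination -h2
  rw [h1, h4]

/-- the vector of an element of the radical -/
noncomputable def ww (h : fr.Par G) : Q h →* Multiplicative (Fin k ⊕ Fin k → F) where
  toFun g := Multiplicative.ofAdd (fr.π (((g : GL (Fin m ⊕ Fin m) F) : Matrix _ _ F) *ᵥ fr.v))
  map_one' := by rw [Subgroup.coe_one, Units.val_one, one_mulVec, fr.πv]; rfl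
  map_mul' g g' := by
    rw [← ofAdd_add]
    congr 1
    obtain ⟨h1, h2, h3⟩ := (mem_Q h).1 g.2
    rw [Subgroup.coe_mul, Units.val_mul, ← mulVec_mulVec]
    conv_lhs => rw [Q_v h g'.2, mulVec_add, mulVec_add, mulVec_smul, h2, map_add,
      map_add, map_smul, fr.πu, smul_zero, zero_add, h3]

/-- the transvections -/
noncomputable def T (h : fr.Par G) : Subgroup (GL (Fin m ⊕ Fin m) F) := (ww h).ker.map (Q h).subtype

theorem mem_T (h : fr.Par G) {g : GL (Fin m ⊕ Fin m) F} :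
    g ∈ T h ↔ g ∈ Q h ∧ fr.π ((g : Matrix _ _ F) *ᵥ fr.v) = 0 := by
  constructor
  · rintro ⟨x, hx, rfl⟩
    exact ⟨x.2, Multiplicative.ofAdd.injective hx⟩
  · rintro ⟨hg, h1⟩
    exact ⟨⟨g, hg⟩, congrArg Multiplicative.ofAdd h1, rfl⟩

theorem T_eq (h : fr.Par G) {g : GL (Fin m ⊕ Fin m) F} (hg : g ∈ T h) (x) :
    (g : Matrix _ _ F) *ᵥ x = x + (sympForm m F ((g : Matrix _ _ F) *ᵥ fr.v) fr.v * sympForm m F fr.u x) • fr.u := by
  obtain ⟨h1, h2⟩ := (mem_T h).1 hg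
  obtain ⟨h3, h4, h5⟩ := (mem_Q h).1 h1
  have e1 := Q_v h h1
  have e2 := fun y => Q_ι h h1 y
  rw [h2, map_zero, add_zero] at e1
  simp only [h2, sympForm_zero_left, zero_smul, zero_add] at e2
  conv_lhs => rw [fr.dec x]
  rw [mulVec_add, mulVec_add, mulVec_smul, mulVec_smul, h4, e2, e1, sympForm_add_left, sympForm_smul_left, fr.uv,
    sympForm_self]
  conv_rhs => rw [fr.dec x]
  simp only [sympForm_add_right, sympForm_smul_right, sympForm_self, fr.uv, fr.uι]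
  module

theorem mem_T_of (h : fr.Par G) {g : GL (Fin m ⊕ Fin m) F} (hg : g ∈ G) {a : F}
    (ha : ∀ x, (g : Matrix _ _ F) *ᵥ x = x + (a * sympForm m F fr.u x) • fr.u) : g ∈ T h := by
  rw [mem_T, mem_Q]
  refine ⟨⟨hg, ?_, fun y => ?_⟩, ?_⟩
  · rw [ha, sympForm_self]; simp
  · rw [ha, fr.uι, mul_zero, zero_smul, add_zero, fr.πι]
  · rw [ha, fr.uv, map_add, map_smul, fr.πu, fr.πv]; simp

theorem T_le (h : fr.Par G) : T h ≤ G := fun _ hg => Q_le h (((mem_T h).1 hg).1)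

theorem mem_TA_of_T (h : fr.Par G) {g : GL (Fin m ⊕ Fin m) F} (hg : g ∈ T h) :
    sympForm m F ((g : Matrix _ _ F) *ᵥ fr.v) fr.v ∈ TA G fr.u :=
  mem_TA.2 ⟨g, T_le h hg, fun x => T_eq h hg x⟩

theorem card_T (h : fr.Par G) : Nat.card (T h) = Nat.card (TA G fr.u) := by
  have hinj : Function.Injective (fun g : T h => (⟨_, mem_TA_of_T h g.2⟩ : TA G fr.u)) := by
    intro g g' hgg
    have h1 : sympForm m F (((g : GL (Fin m ⊕ Fin m) F) : Matrix _ _ F) *ᵥ fr.v) fr.v =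
      sympForm m F (((g' : GL (Fin m ⊕ Fin m) F) : Matrix _ _ F) *ᵥ fr.v) fr.v := congrArg Subtype.val hgg
    apply Subtype.ext
    apply Units.ext
    apply eq_of_mulVec
    intro x
    rw [T_eq h g.2, T_eq h g'.2, h1]
  have hsurj : Function.Surjective (fun g : T h => (⟨_, mem_TA_of_T h g.2⟩ : TA G fr.u)) := by
    intro a
    obtain ⟨g, hg, ha⟩ := mem_TA.1 a.2
    refine ⟨⟨g, mem_T_of h hg ha⟩, ?_⟩
    apply Subtype.ext
    show sympForm m F ((g : Matrix _ _ F) *ᵥ fr.v) fr.v = a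
    rw [ha, fr.uv, sympForm_add_left, sympForm_smul_left, sympForm_self, fr.uv]
    ring
  exact Nat.card_congr (Equiv.ofBijective _ ⟨hinj, hsurj⟩)

section fin

variable [Fintype F]

theorem card_par (h : fr.Par G) :
    ∃ c, c ∣ Fintype.card F - 1 ∧ Nat.card G = Nat.card (fr.rho h.ok).range * (c * Nat.card (Q h)) := by
  have hK : K0 h ≤ G := fun _ hg => ((mem_K0 h).1 hg).1
  have h1 := card_fib hK (fr.rho h.ok) (fun g => by
    constructor
    · intro hg; exact ⟨g, hg, rfl⟩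
    · rintro ⟨x, hx, hxg⟩
      have : x = g := Subtype.ext hxg
      rw [← this]; exact hx)
  have hQ : Q h ≤ K0 h := by
    rintro _ ⟨x, hx, rfl⟩
    exact ⟨x, hx.1, rfl⟩
  have hc := card_fib hQ ((cc h).comp (Subgroup.inclusion hK)) (fun g => by
    have hg := (mem_K0 h).1 g.2
    rw [mem_Q]
    constructor
    · intro h2
      refine ⟨hg.1, ?_, hg.2⟩
      have h3 := cc_smul h (Subgroup.inclusion hK g)
      have h4 : cc h (Subgroup.inclusion hK g) = 1 := h2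
      rwa [h4, Units.val_one, one_smul] at h3
    · rintro ⟨-, h2, -⟩
      apply Units.ext
      show sympForm m F (((g : GL (Fin m ⊕ Fin m) F) : Matrix _ _ F) *ᵥ fr.u) fr.v = 1
      rw [h2, fr.uv])
  refine ⟨_, ?_, by rw [h1, hc]⟩
  have h2 := Subgroup.card_subgroup_dvd_card ((cc h).comp (Subgroup.inclusion hK)).range
  rwa [Nat.card_units, Nat.card_eq_fintype_card (α := F)] at h2

theorem card_Q (h : fr.Par G) : ∃ c, c ∣ Fintype.card F ^ (2 * k) ∧ Nat.card (Q h) = c * Nat.card (T h) := by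
  have hT : T h ≤ Q h := fun _ hg => ((mem_T h).1 hg).1
  have h1 := card_fib hT (ww h) (fun g => by
    rw [mem_T]
    constructor
    · intro hg; exact ⟨g.2, Multiplicative.ofAdd.injective hg⟩
    · rintro ⟨-, hg⟩; exact congrArg Multiplicative.ofAdd hg)
  refine ⟨_, ?_, h1⟩
  have h2 := Subgroup.card_subgroup_dvd_card (ww h).range
  have h3 : Nat.card (Multiplicative (Fin k ⊕ Fin k → F)) = Fintype.card F ^ (2 * k) := by
    rw [Nat.card_congr Multiplicative.toAdd, Nat.card_fun, Nat.card_sum, Nat.card_fin, Nat.card_eq_fintype_card, two_mul]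
  rwa [h3] at h2

theorem card_T_dvd (h : fr.Par G) : Nat.card (T h) ∣ Fintype.card F := by
  rw [card_T, ← Nat.card_eq_fintype_card]
  exact AddSubgroup.card_addSubgroup_dvd_card _

end fin

end Fr

end Cfsg.Agent.H402.Rg
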