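import Cfsg.Agent.H402.Rg.ParC
import Cfsg.Agent.H16.PSp4.Bridge

/-!
# Elements of rank two in `Sp_4(q)` are conjugate into `Sp_2(q²)`
-/

set_option autoImplicit false
set_option linter.unusedSectionVars false

namespace Cfsg.Agent.H402.Rg

open Module Matrix Cfsg Cfsg.Geo
open scoped MatrixGroups Matrix
open Cfsg.Agent.ClassicalGeometry.SympBasic

/-! ### an element of given norm outside of the ground field -/

theorem mem_range_of_pow {F E : Type*} [Field F] [Fintype F] [Field E] [Algebra F E] {x : E}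
    (hx : x ^ Fintype.card F = x) : ∃ s : F, algebraMap F E s = x := by
  classical
  have hq : 1 < Fintype.card F := Fintype.one_lt_card
  set P : Polynomial E := Polynomial.X ^ Fintype.card F - Polynomial.X with hP
  have hdeg : P.natDegree = Fintype.card F := FiniteField.X_pow_card_sub_X_natDegree_eq E hq
  have hP0 : P ≠ 0 := by
    intro h
    rw [h, Polynomial.natDegree_zero] at hdeg
    omega
  set S : Finset E := Finset.univ.image (algebraMap F E) with hS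
  have hSc : S.card = Fintype.card F := by
    rw [hS, Finset.card_image_of_injective _ (algebraMap F E).injective, Finset.card_univ]
  have hsub : S ⊆ P.roots.toFinset := by
    intro y hy
    rw [hS, Finset.mem_image] at hy
    obtain ⟨c, -, rfl⟩ := hy
    rw [Multiset.mem_toFinset, Polynomial.mem_roots hP0, Polynomial.IsRoot.def, hP]
    simp only [Polynomial.eval_sub, Polynomial.eval_pow, Polynomial.eval_X]
    rw [← map_pow, FiniteField.pow_card, sub_self]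
  have hle : P.roots.toFinset.card ≤ Fintype.card F := by
    rw [← hdeg]
    exact (Multiset.toFinset_card_le _).trans (Polynomial.card_roots' P)
  have heq : S = P.roots.toFinset := Finset.eq_of_subset_of_card_le hsub (by rw [hSc]; exact hle)
  have hx' : x ∈ S := by
    rw [heq, Multiset.mem_toFinset, Polynomial.mem_roots hP0, Polynomial.IsRoot.def, hP]
    simp only [Polynomial.eval_sub, Polynomial.eval_pow, Polynomial.eval_X]
    rw [hx, sub_self]
  rw [hS, Finset.mem_image] at hx'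
  obtain ⟨c, -, hc⟩ := hx'
  exact ⟨c, hc⟩

theorem exists_t {F E : Type*} [Field F] [Fintype F] [Field E] [Fintype E] [Algebra F E] (h2 : finrank F E = 2)
    {ν : F} (hν : ν ≠ 0) :
    ∃ (t : E) (τ : F), (∀ s : F, algebraMap F E s ≠ t) ∧ t * t = algebraMap F E τ * t - algebraMap F E ν := by
  classical
  have hq : 1 < Fintype.card F := Fintype.one_lt_card
  set q := Fintype.card F with hqd
  have hE : Fintype.card E = q ^ 2 := by
    have hfinE : FiniteDimensional F E := Module.Finite.of_finite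
    rw [← h2]; exact Module.card_eq_pow_finrank
  have hsq : q ^ 2 - 1 = (q + 1) * (q - 1) := by
    rw [← Nat.sq_sub_sq, one_pow]
  -- the element of order `q + 1`
  obtain ⟨g, hg⟩ := IsCyclic.exists_generator (α := Eˣ)
  have hog : orderOf g = (q + 1) * (q - 1) := by
    rw [orderOf_eq_card_of_forall_mem_zpowers hg, Nat.card_units, Nat.card_eq_fintype_card, hE, hsq]
  set z : Eˣ := g ^ (q - 1) with hz
  have hoz : orderOf z = q + 1 := by
    rw [hz, orderOf_pow, hog, Nat.gcd_eq_right (Dvd.intro_left _ rfl), Nat.mul_div_cancel _ (by omega)]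
  have hzq : (z : E) ^ (q + 1) = 1 := by
    rw [← Units.val_pow_eq_pow_val, ← hoz, pow_orderOf_eq_one, Units.val_one]
  have hzF : ∀ s : F, algebraMap F E s ≠ (z : E) := by
    intro s hs
    have hs0 : s ≠ 0 := by
      rintro rfl
      rw [map_zero] at hs
      exact z.ne_zero hs.symm
    have h1 : (z : E) ^ (q - 1) = 1 := by
      rw [← hs, ← map_pow, FiniteField.pow_card_sub_one_eq_one s hs0, map_one]
    have h3 : z ^ (q - 1) = 1 := Units.ext (by rw [Units.val_pow_eq_pow_val, h1, Units.val_one])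
    have h4 := orderOf_dvd_of_pow_eq_one h3
    rw [hoz] at h4
    have := Nat.le_of_dvd (by omega) h4
    omega
  -- an element of norm `ν`
  obtain ⟨t0, ht0⟩ := FiniteField.norm_surjective F E ν
  have ht0' : t0 ^ (q + 1) = algebraMap F E ν := by
    rw [← ht0, FiniteField.algebraMap_norm_eq_pow]
    congr 1
    rw [Nat.card_eq_fintype_card, Nat.card_eq_fintype_card, hE, ← hqd, hsq, Nat.mul_div_cancel _ (by omega)]
  obtain ⟨t, htF, ht⟩ : ∃ t : E, (∀ s : F, algebraMap F E s ≠ t) ∧ t ^ (q + 1) = algebraMap F E ν := by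
    by_cases h : ∃ s : F, algebraMap F E s = t0
    · obtain ⟨s, hs⟩ := h
      refine ⟨t0 * z, ?_, by rw [mul_pow, ht0', hzq, mul_one]⟩
      intro s' hs'
      have hs0 : s ≠ 0 := by
        rintro rfl
        rw [map_zero] at hs
        rw [← hs, zero_pow (by omega)] at ht0'
        exact hν ((map_eq_zero _).1 ht0'.symm)
      apply hzF (s⁻¹ * s')
      rw [map_mul, hs', map_inv₀, hs, ← mul_assoc, inv_mul_cancel₀, one_mul]
      rw [← hs]
      exact (map_ne_zero _).2 hs0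
    · push Not at h
      exact ⟨t0, h, ht0'⟩
  obtain ⟨τ, hτ⟩ : ∃ τ : F, algebraMap F E τ = t + t ^ q := by
    apply mem_range_of_pow
    have h1 : (t + t ^ q) ^ q = t ^ q + (t ^ q) ^ q := by
      obtain ⟨p, hp⟩ := CharP.exists F
      obtain ⟨n, hpp, hn⟩ := FiniteField.card F p
      have : Fact p.Prime := ⟨hpp⟩
      have : CharP E p := charP_of_injective_algebraMap (algebraMap F E).injective p
      rw [hqd, hn]
      exact add_pow_char_pow _ _ p _
    rw [h1, ← pow_mul, ← sq, ← hE, FiniteField.pow_card, add_comm]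
  refine ⟨t, τ, htF, ?_⟩
  rw [hτ, ← ht]
  ring

/-! ### bases -/

variable {F : Type*} [Field F]

/-- the Plücker relation in dimension two -/
theorem pluck (x y z : Fin 1 ⊕ Fin 1 → F) :
    sympForm 1 F x y • z = sympForm 1 F z y • x + sympForm 1 F x z • y := by
  have h : ∀ u v : Fin 1 ⊕ Fin 1 → F, sympForm 1 F u v = u (Sum.inr 0) * v (Sum.inl 0) - u (Sum.inl 0) * v (Sum.inr 0) := by
    intro u v
    rw [sympForm_eq_sum]
    simp
  rw [h, h, h]
  ext i
  rcases i with i | i <;> fin_cases i <;> simp <;> ring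

/-- a basis of the four-dimensional space with two hyperbolic pairs -/
structure B4 (F : Type*) [Field F] (a b : F) where
  n₁ : Fin 2 ⊕ Fin 2 → F
  x₁ : Fin 2 ⊕ Fin 2 → F
  n₂ : Fin 2 ⊕ Fin 2 → F
  x₂ : Fin 2 ⊕ Fin 2 → F
  h1 : sympForm 2 F n₁ x₁ = a
  h2 : sympForm 2 F n₂ x₂ = b
  h3 : sympForm 2 F n₁ n₂ = 0
  h4 : sympForm 2 F n₁ x₂ = 0
  h5 : sympForm 2 F n₂ x₁ = 0
  h6 : sympForm 2 F x₁ x₂ = 0

namespace B4

variable {a b : F} (B : B4 F a b)

theorem expand (ha : a ≠ 0) (hb : b ≠ 0) (x : Fin 2 ⊕ Fin 2 → F) :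
    x = (a⁻¹ * sympForm 2 F x B.x₁) • B.n₁ + (a⁻¹ * sympForm 2 F B.n₁ x) • B.x₁ +
      (b⁻¹ * sympForm 2 F x B.x₂) • B.n₂ + (b⁻¹ * sympForm 2 F B.n₂ x) • B.x₂ := by
  obtain ⟨fr, hu, hv⟩ := exists_fr (k := 1) (m := 2) rfl (u := a⁻¹ • B.n₁) (v := B.x₁) (by
    rw [sympForm_smul_left, B.h1, inv_mul_cancel₀ ha])
  have e1 := fr.dec B.n₂
  have e2 := fr.dec B.x₂
  rw [hu, hv, sympForm_smul_left, B.h5, B.h3, mul_zero, zero_smul, zero_smul, zero_add, zero_add] at e1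
  rw [hu, hv, sympForm_smul_left, B.h4, sympForm_swap, B.h6, neg_zero, mul_zero, zero_smul, zero_smul, zero_add, zero_add] at e2
  have e3 : sympForm 1 F (fr.π B.n₂) (fr.π B.x₂) = b := by
    rw [← fr.form, ← e1, ← e2, B.h2]
  have e4 := congrArg fr.ι (pluck (fr.π B.n₂) (fr.π B.x₂) (fr.π x))
  have e5 : sympForm 1 F (fr.π x) (fr.π B.x₂) = sympForm 2 F x B.x₂ := by
    rw [sympForm_swap, ← fr.form_π, ← e2, sympForm_swap, neg_neg]
  have e8 : sympForm 1 F (fr.π B.n₂) (fr.π x) = sympForm 2 F B.n₂ x := by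
    rw [← fr.form_π, ← e1]
  rw [map_add, map_smul, map_smul, map_smul, ← e1, ← e2, e3, e5, e8] at e4
  have e6 : fr.ι (fr.π x) = (b⁻¹ * sympForm 2 F x B.x₂) • B.n₂ + (b⁻¹ * sympForm 2 F B.n₂ x) • B.x₂ := by
    rw [mul_smul, mul_smul, ← smul_add, ← e4, smul_smul, inv_mul_cancel₀ hb, one_smul]
  have e7 := fr.dec x
  rw [e6, hu, hv, sympForm_smul_left] at e7
  conv_lhs => rw [e7]
  module

/-- the linear map between two bases -/
noncomputable def map (B' : B4 F a b) : (Fin 2 ⊕ Fin 2 → F) →ₗ[F] (Fin 2 ⊕ Fin 2 → F) where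
  toFun x := (a⁻¹ * sympForm 2 F x B.x₁) • B'.n₁ + (a⁻¹ * sympForm 2 F B.n₁ x) • B'.x₁ +
      (b⁻¹ * sympForm 2 F x B.x₂) • B'.n₂ + (b⁻¹ * sympForm 2 F B.n₂ x) • B'.x₂
  map_add' x y := by
    rw [sympForm_add_left, sympForm_add_right, sympForm_add_left, sympForm_add_right]
    module
  map_smul' c x := by
    rw [sympForm_smul_left, sympForm_smul_right, sympForm_smul_left, sympForm_smul_right, RingHom.id_apply]
    module

theorem map_apply (B' : B4 F a b) (x) : B.map B' x = (a⁻¹ * sympForm 2 F x B.x₁) • B'.n₁ + (a⁻¹ * sympForm 2 F B.n₁ x) • B'.x₁ +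
      (b⁻¹ * sympForm 2 F x B.x₂) • B'.n₂ + (b⁻¹ * sympForm 2 F B.n₂ x) • B'.x₂ := rfl

theorem h5' : sympForm 2 F B.x₁ B.n₂ = 0 := by rw [sympForm_swap, B.h5, neg_zero]
theorem h4' : sympForm 2 F B.x₂ B.n₁ = 0 := by rw [sympForm_swap, B.h4, neg_zero]
theorem h3' : sympForm 2 F B.n₂ B.n₁ = 0 := by rw [sympForm_swap, B.h3, neg_zero]
theorem h6' : sympForm 2 F B.x₂ B.x₁ = 0 := by rw [sympForm_swap, B.h6, neg_zero]
theorem h1' : sympForm 2 F B.x₁ B.n₁ = -a := by rw [sympForm_swap, B.h1]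
theorem h2' : sympForm 2 F B.x₂ B.n₂ = -b := by rw [sympForm_swap, B.h2]

theorem form_comb (α β γ δ α' β' γ' δ' : F) :
    sympForm 2 F (α • B.n₁ + β • B.x₁ + γ • B.n₂ + δ • B.x₂) (α' • B.n₁ + β' • B.x₁ + γ' • B.n₂ + δ' • B.x₂) =
      a * (α * β' - β * α') + b * (γ * δ' - δ * γ') := by
  simp only [sympForm_add_left, sympForm_add_right, sympForm_smul_left, sympForm_smul_right, sympForm_self, B.h1, B.h2,
    B.h3, B.h4, B.h5, B.h6, B.h1', B.h2', B.h3', B.h4', B.h5', B.h6']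
  ring

theorem map_n₁ (ha : a ≠ 0) (B' : B4 F a b) : B.map B' B.n₁ = B'.n₁ := by
  rw [map_apply, sympForm_self, B.h1, B.h3', B.h4]
  rw [inv_mul_cancel₀ ha]
  simp

theorem map_x₁ (ha : a ≠ 0) (B' : B4 F a b) : B.map B' B.x₁ = B'.x₁ := by
  rw [map_apply, sympForm_self, B.h1, B.h5, B.h6]
  rw [inv_mul_cancel₀ ha]
  simp

theorem map_n₂ (hb : b ≠ 0) (B' : B4 F a b) : B.map B' B.n₂ = B'.n₂ := by
  rw [map_apply, sympForm_self, B.h2, B.h5, B.h3]
  rw [inv_mul_cancel₀ hb]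
  simp

theorem map_x₂ (hb : b ≠ 0) (B' : B4 F a b) : B.map B' B.x₂ = B'.x₂ := by
  rw [map_apply, sympForm_self, B.h2, B.h4, B.h6']
  rw [inv_mul_cancel₀ hb]
  simp

theorem map_form (ha : a ≠ 0) (hb : b ≠ 0) (B' : B4 F a b) (x y) :
    sympForm 2 F (B.map B' x) (B.map B' y) = sympForm 2 F x y := by
  conv_rhs => rw [B.expand ha hb x, B.expand ha hb y]
  rw [B.form_comb, map_apply, map_apply, B'.form_comb]

/-- two linear maps agree when they agree on the basis -/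
theorem ext (ha : a ≠ 0) (hb : b ≠ 0) {W : Type*} [AddCommGroup W] [Module F W] {f g : (Fin 2 ⊕ Fin 2 → F) →ₗ[F] W}
    (h1 : f B.n₁ = g B.n₁) (h2 : f B.x₁ = g B.x₁) (h3 : f B.n₂ = g B.n₂) (h4 : f B.x₂ = g B.x₂) : f = g := by
  refine LinearMap.ext fun x => ?_
  rw [B.expand ha hb x]
  simp only [map_add, map_smul, h1, h2, h3, h4]

end B4

/-- an isometry as an element of the group -/
theorem exists_spGL {m : ℕ} (L : (Fin m ⊕ Fin m → F) →ₗ[F] (Fin m ⊕ Fin m → F))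
    (hL : ∀ x y, sympForm m F (L x) (L y) = sympForm m F x y) :
    ∃ h ∈ spGL m F, ∀ x, (h : Matrix _ _ F) *ᵥ x = L x := by
  have hLinj : Function.Injective L := by
    rw [← LinearMap.ker_eq_bot, LinearMap.ker_eq_bot']
    intro x hx
    refine eq_zero_of_forall_sympForm_right fun y => ?_
    rw [← hL, hx, sympForm_zero_left]
  have hM : IsUnit (LinearMap.toMatrix' L) := by
    rw [LinearMap.isUnit_toMatrix'_iff, LinearMap.isUnit_iff_ker_eq_bot, LinearMap.ker_eq_bot]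
    exact hLinj
  obtain ⟨A, hA⟩ := hM
  have h1 : ∀ x, (A : Matrix _ _ F) *ᵥ x = L x := fun x => by rw [hA, LinearMap.toMatrix'_mulVec]
  refine ⟨A, ?_, h1⟩
  rw [Cd.mem_spGL]
  intro x y
  rw [h1, h1, hL]

/-- `g = 1 + N`, `N² = 0`, of rank two, with a diagonal form -/
def Two (g : GL (Fin 2 ⊕ Fin 2) F) : Prop :=
  (∀ x, (g : Matrix (Fin 2 ⊕ Fin 2) (Fin 2 ⊕ Fin 2) F) *ᵥ ((g : Matrix (Fin 2 ⊕ Fin 2) (Fin 2 ⊕ Fin 2) F) *ᵥ x - x) =
      (g : Matrix (Fin 2 ⊕ Fin 2) (Fin 2 ⊕ Fin 2) F) *ᵥ x - x) ∧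
    ∃ x₁ x₂, sympForm 2 F ((g : Matrix (Fin 2 ⊕ Fin 2) (Fin 2 ⊕ Fin 2) F) *ᵥ x₁ - x₁) x₁ ≠ 0 ∧
      sympForm 2 F ((g : Matrix (Fin 2 ⊕ Fin 2) (Fin 2 ⊕ Fin 2) F) *ᵥ x₂ - x₂) x₂ ≠ 0 ∧
      sympForm 2 F ((g : Matrix (Fin 2 ⊕ Fin 2) (Fin 2 ⊕ Fin 2) F) *ᵥ x₁ - x₁) x₂ = 0

theorem two_basis {g : GL (Fin 2 ⊕ Fin 2) F} (hg : g ∈ spGL 2 F) (h : Two g) :
    ∃ (a b : F) (B : B4 F a b), a ≠ 0 ∧ b ≠ 0 ∧ (g : Matrix _ _ F) *ᵥ B.n₁ = B.n₁ ∧
      (g : Matrix _ _ F) *ᵥ B.x₁ = B.x₁ + B.n₁ ∧ (g : Matrix _ _ F) *ᵥ B.n₂ = B.n₂ ∧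
      (g : Matrix _ _ F) *ᵥ B.x₂ = B.x₂ + B.n₂ := by
  obtain ⟨h1, x₁, x₂, ha, hb, h12⟩ := h
  have hgf := Cd.mem_spGL.1 hg
  set N : (Fin 2 ⊕ Fin 2 → F) → (Fin 2 ⊕ Fin 2 → F) := fun x => (g : Matrix _ _ F) *ᵥ x - x with hN
  have hgx : ∀ x, (g : Matrix _ _ F) *ᵥ x = x + N x := fun x => by rw [hN]; simp
  have hNN : ∀ x, (g : Matrix _ _ F) *ᵥ N x = N x := h1
  -- `f (N x) (N y) = 0` and symmetry
  have e1 : ∀ x y, sympForm 2 F (N x) (N y) = 0 := by
    intro x y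
    have h2 := hgf (N x) y
    rw [hNN, hgx y, sympForm_add_right] at h2
    exact left_eq_add.1 h2.symm
  have e2 : ∀ x y, sympForm 2 F (N x) y = sympForm 2 F (N y) x := by
    intro x y
    have h2 := hgf x y
    rw [hgx x, hgx y, sympForm_add_right, sympForm_add_left, sympForm_add_left, e1, sympForm_swap x (N y)] at h2
    linear_combination h2
  have ha' : sympForm 2 F (N x₁) x₁ ≠ 0 := ha
  have hb' : sympForm 2 F (N x₂) x₂ ≠ 0 := hb
  have h12' : sympForm 2 F (N x₁) x₂ = 0 := h12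
  set s : F := (sympForm 2 F (N x₁) x₁)⁻¹ * sympForm 2 F x₁ x₂ with hs
  have hsa : s * sympForm 2 F (N x₁) x₁ = sympForm 2 F x₁ x₂ := by
    rw [hs]; field_simp
  have hgy : (g : Matrix _ _ F) *ᵥ (x₂ + s • N x₁) = (x₂ + s • N x₁) + N x₂ := by
    rw [mulVec_add, mulVec_smul, hNN, hgx x₂]
    abel
  refine ⟨sympForm 2 F (N x₁) x₁, sympForm 2 F (N x₂) x₂, ⟨N x₁, x₁, N x₂, x₂ + s • N x₁, rfl, ?_, e1 _ _, ?_, ?_, ?_⟩,
    ha', hb', hNN _, hgx _, hNN _, hgy⟩
  · rw [sympForm_add_right, sympForm_smul_right, e1, mul_zero, add_zero]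
  · rw [sympForm_add_right, sympForm_smul_right, sympForm_self, mul_zero, add_zero, h12']
  · rw [e2, h12']
  · rw [sympForm_add_right, sympForm_smul_right, sympForm_swap x₁ (N x₁), mul_neg, hsa, add_neg_cancel]

variable [Fintype F] {E : Type*} [Field E] [Fintype E] [Algebra F E]

theorem target (c : Cd 2 F E 1) (h2 : finrank F E = 2) {a b : F} (ha : a ≠ 0) (hb : b ≠ 0) :
    ∃ (B : B4 F a b) (A : GL (Fin 1 ⊕ Fin 1) E), A ∈ spGL 1 E ∧ (c.Psi A : Matrix _ _ F) *ᵥ B.n₁ = B.n₁ ∧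
      (c.Psi A : Matrix _ _ F) *ᵥ B.x₁ = B.x₁ + B.n₁ ∧ (c.Psi A : Matrix _ _ F) *ᵥ B.n₂ = B.n₂ ∧
      (c.Psi A : Matrix _ _ F) *ᵥ B.x₂ = B.x₂ + B.n₂ := by
  classical
  have hfinE : FiniteDimensional F E := Module.Finite.of_finite
  obtain ⟨t, τ, htF, htt⟩ := exists_t (F := F) (E := E) h2 (ν := -(b / a)) (neg_ne_zero.2 (div_ne_zero hb ha))
  -- `1, t` is a basis
  have hli : LinearIndependent F ![(1 : E), t] := by
    rw [LinearIndependent.pair_iff' one_ne_zero]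
    intro s hs
    apply htF s
    rw [← hs, Algebra.smul_def, mul_one]
  have hspan : Submodule.span F (Set.range ![(1 : E), t]) = ⊤ := by
    apply hli.span_eq_top_of_card_eq_finrank
    rw [h2]; rfl
  -- the element `κ`
  obtain ⟨κ, hκ1, hκ2⟩ : ∃ κ : E, c.ℓ κ = a ∧ c.ℓ (κ * t) = 0 := by
    let Λ : E →ₗ[F] (Fin 2 → F) := LinearMap.pi ![c.ℓ, c.ℓ ∘ₗ LinearMap.mulRight F t]
    have hΛ : Function.Injective Λ := by
      rw [← LinearMap.ker_eq_bot, LinearMap.ker_eq_bot']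
      intro κ hκ
      by_contra hne
      apply c.ne
      have k1 : c.ℓ κ = 0 := congrFun hκ 0
      have k2 : c.ℓ (κ * t) = 0 := congrFun hκ 1
      have k3 : ∀ x : E, c.ℓ (κ * x) = 0 := by
        intro x
        have hx : x ∈ Submodule.span F (Set.range ![(1 : E), t]) := by rw [hspan]; trivial
        induction hx using Submodule.span_induction with
        | mem y hy =>
          obtain ⟨i, rfl⟩ := hy
          fin_cases i
          · simpa using k1
          · simpa using k2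
        | zero => rw [mul_zero, map_zero]
        | add y z _ _ h1 h2 => rw [mul_add, map_add, h1, h2, add_zero]
        | smul s y _ h1 => rw [mul_smul_comm, map_smul, h1, smul_zero]
      ext x
      have := k3 (κ⁻¹ * x)
      rw [← mul_assoc, mul_inv_cancel₀ hne, one_mul] at this
      rw [this]; rfl
    have hsurj : Function.Surjective Λ := by
      apply (LinearMap.injective_iff_surjective_of_finrank_eq_finrank _).1 hΛ
      rw [h2, Module.finrank_fintype_fun_eq_card]; rfl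
    obtain ⟨κ, hκ⟩ := hsurj ![a, 0]
    exact ⟨κ, congrFun hκ 0, congrFun hκ 1⟩
  have hκ3 : c.ℓ (κ * t * t) = b := by
    have h3 : κ * t * t = τ • (κ * t) + (b / a) • κ := by
      rw [mul_assoc, htt, Algebra.smul_def, Algebra.smul_def, map_neg]
      ring
    rw [h3, map_add, map_smul, map_smul, hκ1, hκ2, smul_zero, zero_add, smul_eq_mul, div_mul_cancel₀ _ ha]
  -- the vectors
  set u : Fin 1 ⊕ Fin 1 → E := Pi.single (Sum.inr 0) 1 with hu
  set w : Fin 1 ⊕ Fin 1 → E := Pi.single (Sum.inl 0) 1 with hw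
  have huw : sympForm 1 E u w = 1 := by
    rw [hu, sympForm_single_inr_left, hw, Pi.single_eq_same]
  obtain ⟨A, hA, hAx⟩ := exists_spGL (m := 1) (F := E) (Matrix.toLin' (sympTransvection 1 u (-κ)))
    (fun x y => by
      rw [Matrix.toLin'_apply, Matrix.toLin'_apply]
      exact sympForm_mulVec (sympTransvection_mem _ _) x y)
  have hAx' : ∀ x, (A : Matrix _ _ E) *ᵥ x = x + (κ * sympForm 1 E u x) • u := by
    intro x
    rw [hAx, Matrix.toLin'_apply, sympTransvection_mulVec, sympForm_swap x u]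
    ring_nf
  refine ⟨⟨c.e (κ • u), c.e w, c.e ((κ * t) • u), c.e (t • w), ?_, ?_, ?_, ?_, ?_, ?_⟩, A, hA, ?_, ?_, ?_, ?_⟩
  · rw [c.form, sympForm_smul_left, huw, mul_one, hκ1]
  · rw [c.form, sympForm_smul_left, sympForm_smul_right, huw, mul_one, hκ3]
  · rw [c.form, sympForm_smul_left, sympForm_smul_right, sympForm_self, mul_zero, mul_zero, map_zero]
  · rw [c.form, sympForm_smul_left, sympForm_smul_right, huw, mul_one, hκ2]
  · rw [c.form, sympForm_smul_left, huw, mul_one, hκ2]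
  · rw [c.form, sympForm_smul_right, sympForm_self, mul_zero, map_zero]
  · show (c.Psi A : Matrix _ _ F) *ᵥ c.e (κ • u) = c.e (κ • u)
    rw [c.Psi_mulVec, hAx', sympForm_smul_right, sympForm_self, mul_zero, mul_zero, zero_smul, add_zero]
  · show (c.Psi A : Matrix _ _ F) *ᵥ c.e w = c.e w + c.e (κ • u)
    rw [c.Psi_mulVec, hAx', huw, mul_one, map_add]
  · show (c.Psi A : Matrix _ _ F) *ᵥ c.e ((κ * t) • u) = c.e ((κ * t) • u)
    rw [c.Psi_mulVec, hAx', sympForm_smul_right, sympForm_self, mul_zero, mul_zero, zero_smul, add_zero]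
  · show (c.Psi A : Matrix _ _ F) *ᵥ c.e (t • w) = c.e (t • w) + c.e ((κ * t) • u)
    rw [c.Psi_mulVec, hAx', sympForm_smul_right, huw, mul_one, map_add]

/-- **elements of rank two are conjugate into `Sp_2(q²)`** -/
theorem conj_two (c : Cd 2 F E 1) (h2 : finrank F E = 2) {g : GL (Fin 2 ⊕ Fin 2) F} (hg : g ∈ spGL 2 F) (h : Two g) :
    ∃ y ∈ spGL 2 F, ∃ A ∈ spGL 1 E, y * g * y⁻¹ = c.Psi A := by
  obtain ⟨a, b, B, ha, hb, g1, g2, g3, g4⟩ := two_basis hg h
  obtain ⟨B', A, hA, k1, k2, k3, k4⟩ := target c h2 ha hb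
  obtain ⟨y, hy, hyx⟩ := exists_spGL (B.map B') (B.map_form ha hb B')
  refine ⟨y, hy, A, hA, ?_⟩
  rw [mul_inv_eq_iff_eq_mul]
  apply Units.ext
  rw [Units.val_mul, Units.val_mul]
  have e : Matrix.toLin' ((y : Matrix (Fin 2 ⊕ Fin 2) (Fin 2 ⊕ Fin 2) F) * (g : Matrix (Fin 2 ⊕ Fin 2) (Fin 2 ⊕ Fin 2) F)) =
      Matrix.toLin' ((c.Psi A : Matrix (Fin 2 ⊕ Fin 2) (Fin 2 ⊕ Fin 2) F) * (y : Matrix (Fin 2 ⊕ Fin 2) (Fin 2 ⊕ Fin 2) F)) := by
    apply B.ext ha hb
    · rw [Matrix.toLin'_apply, Matrix.toLin'_apply, ← mulVec_mulVec, ← mulVec_mulVec, g1, hyx, B.map_n₁ ha, k1]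
    · rw [Matrix.toLin'_apply, Matrix.toLin'_apply, ← mulVec_mulVec, ← mulVec_mulVec, g2, mulVec_add, hyx, hyx,
        B.map_n₁ ha, B.map_x₁ ha, k2]
    · rw [Matrix.toLin'_apply, Matrix.toLin'_apply, ← mulVec_mulVec, ← mulVec_mulVec, g3, hyx, B.map_n₂ hb, k3]
    · rw [Matrix.toLin'_apply, Matrix.toLin'_apply, ← mulVec_mulVec, ← mulVec_mulVec, g4, mulVec_add, hyx, hyx,
        B.map_n₂ hb, B.map_x₂ hb, k4]
  exact Matrix.toLin'.injective e

end Cfsg.Agent.H402.Rg
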