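import Cfsg.Agent.H402.Rg.ParC

/-!
# The stabiliser of a hyperbolic plane of the symplectic space
-/

set_option autoImplicit false
set_option linter.unusedSectionVars false

namespace Cfsg.Agent.H402.Rg

open Module Matrix Cfsg Cfsg.Geo
open scoped MatrixGroups Matrix
open Cfsg.Agent.ClassicalGeometry.SympBasic

variable {k m : ℕ} {F : Type*} [Field F]

/-! ### the action on an invariant coordinate subspace -/

section act

variable {n : ℕ} {Y : Subgroup (GL (Fin m ⊕ Fin m) F)}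
  {ι : (Fin n ⊕ Fin n → F) →ₗ[F] (Fin m ⊕ Fin m → F)} {π : (Fin m ⊕ Fin m → F) →ₗ[F] (Fin n ⊕ Fin n → F)}

/-- the action -/
noncomputable def act (hπ : ∀ z, π (ι z) = z)
    (hY : ∀ g ∈ Y, ∀ z, (g : Matrix (Fin m ⊕ Fin m) (Fin m ⊕ Fin m) F) *ᵥ ι z =
      ι (π ((g : Matrix (Fin m ⊕ Fin m) (Fin m ⊕ Fin m) F) *ᵥ ι z))) : Y →* GL (Fin n ⊕ Fin n) F :=
  MonoidHom.toHomUnits
    { toFun := fun g => LinearMap.toMatrix' (π ∘ₗ (Matrix.toLin' ((g : GL (Fin m ⊕ Fin m) F) : Matrix (Fin m ⊕ Fin m) (Fin m ⊕ Fin m) F)) ∘ₗ ι)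
      map_one' := by
        apply eq_of_mulVec
        intro y
        rw [LinearMap.toMatrix'_mulVec]
        simp [hπ]
      map_mul' := fun g h => by
        apply eq_of_mulVec
        intro y
        rw [← mulVec_mulVec, LinearMap.toMatrix'_mulVec, LinearMap.toMatrix'_mulVec, LinearMap.toMatrix'_mulVec]
        simp only [LinearMap.comp_apply, Matrix.toLin'_apply]
        rw [← hY h h.2, Subgroup.coe_mul, Units.val_mul, mulVec_mulVec] }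

theorem act_mulVec (hπ : ∀ z, π (ι z) = z)
    (hY : ∀ g ∈ Y, ∀ z, (g : Matrix (Fin m ⊕ Fin m) (Fin m ⊕ Fin m) F) *ᵥ ι z =
      ι (π ((g : Matrix (Fin m ⊕ Fin m) (Fin m ⊕ Fin m) F) *ᵥ ι z))) (g : Y) (y) :
    ι ((act hπ hY g : Matrix (Fin n ⊕ Fin n) (Fin n ⊕ Fin n) F) *ᵥ y) =
      ((g : GL (Fin m ⊕ Fin m) F) : Matrix (Fin m ⊕ Fin m) (Fin m ⊕ Fin m) F) *ᵥ ι y := by
  have h1 : (act hπ hY g : Matrix (Fin n ⊕ Fin n) (Fin n ⊕ Fin n) F) *ᵥ y =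
      π (((g : GL (Fin m ⊕ Fin m) F) : Matrix (Fin m ⊕ Fin m) (Fin m ⊕ Fin m) F) *ᵥ ι y) := by
    show LinearMap.toMatrix' _ *ᵥ y = _
    rw [LinearMap.toMatrix'_mulVec]
    simp
  rw [h1, ← hY g g.2]

theorem act_mem (hπ : ∀ z, π (ι z) = z)
    (hY : ∀ g ∈ Y, ∀ z, (g : Matrix (Fin m ⊕ Fin m) (Fin m ⊕ Fin m) F) *ᵥ ι z =
      ι (π ((g : Matrix (Fin m ⊕ Fin m) (Fin m ⊕ Fin m) F) *ᵥ ι z)))
    (hf : ∀ x y, sympForm m F (ι x) (ι y) = sympForm n F x y) (hYS : Y ≤ spGL m F) (g : Y) :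
    act hπ hY g ∈ spGL n F := by
  rw [Cd.mem_spGL]
  intro x y
  rw [← hf, act_mulVec, act_mulVec, (Cd.mem_spGL.1 (hYS g.2)), hf]

theorem act_eq_one (hπ : ∀ z, π (ι z) = z)
    (hY : ∀ g ∈ Y, ∀ z, (g : Matrix (Fin m ⊕ Fin m) (Fin m ⊕ Fin m) F) *ᵥ ι z =
      ι (π ((g : Matrix (Fin m ⊕ Fin m) (Fin m ⊕ Fin m) F) *ᵥ ι z))) (g : Y) :
    act hπ hY g = 1 ↔ ∀ y, ((g : GL (Fin m ⊕ Fin m) F) : Matrix (Fin m ⊕ Fin m) (Fin m ⊕ Fin m) F) *ᵥ ι y = ι y := by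
  constructor
  · intro h y
    rw [← act_mulVec hπ hY, h, Units.val_one, one_mulVec]
  · intro h
    apply Units.ext
    apply eq_of_mulVec
    intro y
    rw [← hπ ((act hπ hY g : Matrix (Fin n ⊕ Fin n) (Fin n ⊕ Fin n) F) *ᵥ y), act_mulVec, h, hπ, Units.val_one, one_mulVec]

end act

namespace Fr

variable (fr : Fr k m F)

/-- coordinates of the plane -/
noncomputable def ι₁ : (Fin 1 ⊕ Fin 1 → F) →ₗ[F] (Fin m ⊕ Fin m → F) where
  toFun z := z (Sum.inr 0) • fr.u + z (Sum.inl 0) • fr.v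
  map_add' x y := by
    rw [Pi.add_apply, Pi.add_apply]
    module
  map_smul' c x := by
    rw [Pi.smul_apply, Pi.smul_apply, RingHom.id_apply, smul_eq_mul, smul_eq_mul]
    module

theorem ι₁_apply (z) : fr.ι₁ z = z (Sum.inr 0) • fr.u + z (Sum.inl 0) • fr.v := rfl

/-- the projection onto the plane -/
noncomputable def π₁ : (Fin m ⊕ Fin m → F) →ₗ[F] (Fin 1 ⊕ Fin 1 → F) where
  toFun x := Sum.elim (fun _ => sympForm m F fr.u x) (fun _ => sympForm m F x fr.v)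
  map_add' x y := by
    ext i
    rcases i with i | i
    · simp [sympForm_add_right]
    · simp [sympForm_add_left]
  map_smul' c x := by
    ext i
    rcases i with i | i
    · simp [sympForm_smul_right]
    · simp [sympForm_smul_left]

theorem π₁_inl (x) (i) : fr.π₁ x (Sum.inl i) = sympForm m F fr.u x := rfl
theorem π₁_inr (x) (i) : fr.π₁ x (Sum.inr i) = sympForm m F x fr.v := rfl

theorem π₁ι₁ (z) : fr.π₁ (fr.ι₁ z) = z := by
  ext i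
  rcases i with i | i
  · rw [π₁_inl, ι₁_apply, sympForm_add_right, sympForm_smul_right, sympForm_smul_right, sympForm_self, fr.uv,
      Subsingleton.elim i 0]
    ring
  · rw [π₁_inr, ι₁_apply, sympForm_add_left, sympForm_smul_left, sympForm_smul_left, sympForm_self, fr.uv,
      Subsingleton.elim i 0]
    ring

theorem form₁ (x y) : sympForm m F (fr.ι₁ x) (fr.ι₁ y) = sympForm 1 F x y := by
  rw [ι₁_apply, ι₁_apply, sympForm_eq_sum (m := 1)]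
  simp only [sympForm_add_left, sympForm_add_right, sympForm_smul_left, sympForm_smul_right, sympForm_self, fr.uv, fr.vu,
    Finset.univ_unique, Fin.default_eq_zero, Finset.sum_singleton]
  ring

theorem orth₁ (x y) : sympForm m F (fr.ι₁ x) (fr.ι y) = 0 := by
  rw [ι₁_apply, sympForm_add_left, sympForm_smul_left, sympForm_smul_left, fr.uι, fr.vι]
  ring

theorem dec₁ (x) : x = fr.ι₁ (fr.π₁ x) + fr.ι (fr.π x) := by
  rw [ι₁_apply, π₁_inl, π₁_inr]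
  exact fr.dec x

theorem ππ₁ (z) : fr.π (fr.ι₁ z) = 0 := by
  rw [ι₁_apply, map_add, map_smul, map_smul, fr.πu, fr.πv, smul_zero, smul_zero, add_zero]

/-- the plane is stabilised -/
def Sta (Y : Subgroup (GL (Fin m ⊕ Fin m) F)) : Prop :=
  Y ≤ spGL m F ∧ ∀ g ∈ Y, fr.π ((g : Matrix (Fin m ⊕ Fin m) (Fin m ⊕ Fin m) F) *ᵥ fr.u) = 0 ∧
    fr.π ((g : Matrix (Fin m ⊕ Fin m) (Fin m ⊕ Fin m) F) *ᵥ fr.v) = 0

variable {fr} {Y : Subgroup (GL (Fin m ⊕ Fin m) F)}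

theorem Sta.h₁ (h : fr.Sta Y) : ∀ g ∈ Y, ∀ z, (g : Matrix (Fin m ⊕ Fin m) (Fin m ⊕ Fin m) F) *ᵥ fr.ι₁ z =
    fr.ι₁ (fr.π₁ ((g : Matrix (Fin m ⊕ Fin m) (Fin m ⊕ Fin m) F) *ᵥ fr.ι₁ z)) := by
  intro g hg z
  have h1 : fr.π ((g : Matrix (Fin m ⊕ Fin m) (Fin m ⊕ Fin m) F) *ᵥ fr.ι₁ z) = 0 := by
    rw [ι₁_apply, mulVec_add, mulVec_smul, mulVec_smul, map_add, map_smul, map_smul, (h.2 g hg).1, (h.2 g hg).2]
    simp
  conv_lhs => rw [fr.dec₁ ((g : Matrix (Fin m ⊕ Fin m) (Fin m ⊕ Fin m) F) *ᵥ fr.ι₁ z)]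
  rw [h1, map_zero, add_zero]

theorem Sta.h₂ (h : fr.Sta Y) : ∀ g ∈ Y, ∀ z, (g : Matrix (Fin m ⊕ Fin m) (Fin m ⊕ Fin m) F) *ᵥ fr.ι z =
    fr.ι (fr.π ((g : Matrix (Fin m ⊕ Fin m) (Fin m ⊕ Fin m) F) *ᵥ fr.ι z)) := by
  intro g hg z
  have h0 : ∀ y, sympForm m F (fr.ι₁ y) ((g : Matrix (Fin m ⊕ Fin m) (Fin m ⊕ Fin m) F) *ᵥ fr.ι z) = 0 := by
    intro y
    have h2 := (Cd.mem_spGL.1 (h.1 (Y.inv_mem hg))) (fr.ι₁ y) ((g : Matrix (Fin m ⊕ Fin m) (Fin m ⊕ Fin m) F) *ᵥ fr.ι z)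
    rw [inv_mulVec', h.h₁ g⁻¹ (Y.inv_mem hg), orth₁] at h2
    exact h2.symm
  have h1 : fr.π₁ ((g : Matrix (Fin m ⊕ Fin m) (Fin m ⊕ Fin m) F) *ᵥ fr.ι z) = 0 := by
    have hu := h0 (Pi.single (Sum.inr 0) 1)
    have hv := h0 (Pi.single (Sum.inl 0) 1)
    rw [ι₁_apply] at hu hv
    simp only [Pi.single_eq_same, one_smul, Pi.single_apply, reduceCtorEq, if_false, zero_smul, add_zero, zero_add] at hu hv
    ext i
    rcases i with i | i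
    · rw [π₁_inl, hu]; rfl
    · rw [π₁_inr, sympForm_swap, hv, neg_zero]; rfl
  conv_lhs => rw [fr.dec₁ ((g : Matrix (Fin m ⊕ Fin m) (Fin m ⊕ Fin m) F) *ᵥ fr.ι z)]
  rw [h1, map_zero, zero_add]

/-- the action on the plane -/
noncomputable def r₁ (h : fr.Sta Y) : Y →* GL (Fin 1 ⊕ Fin 1) F := act fr.π₁ι₁ h.h₁

/-- the action on the orthogonal space -/
noncomputable def r₂ (h : fr.Sta Y) : Y →* GL (Fin k ⊕ Fin k) F := act fr.πι h.h₂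

theorem r₁_mem (h : fr.Sta Y) (g : Y) : r₁ h g ∈ spGL 1 F := act_mem _ _ fr.form₁ h.1 g
theorem r₂_mem (h : fr.Sta Y) (g : Y) : r₂ h g ∈ spGL k F := act_mem _ _ fr.form h.1 g

theorem ι₁_r₁ (h : fr.Sta Y) (g : Y) (y) : fr.ι₁ ((r₁ h g : Matrix (Fin 1 ⊕ Fin 1) (Fin 1 ⊕ Fin 1) F) *ᵥ y) =
    ((g : GL (Fin m ⊕ Fin m) F) : Matrix (Fin m ⊕ Fin m) (Fin m ⊕ Fin m) F) *ᵥ fr.ι₁ y := act_mulVec _ _ g y

theorem ι_r₂ (h : fr.Sta Y) (g : Y) (y) : fr.ι ((r₂ h g : Matrix (Fin k ⊕ Fin k) (Fin k ⊕ Fin k) F) *ᵥ y) =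
    ((g : GL (Fin m ⊕ Fin m) F) : Matrix (Fin m ⊕ Fin m) (Fin m ⊕ Fin m) F) *ᵥ fr.ι y := act_mulVec _ _ g y

theorem ker_inf (h : fr.Sta Y) : (r₁ h).ker ⊓ (r₂ h).ker = ⊥ := by
  rw [Subgroup.eq_bot_iff_forall]
  rintro g ⟨h1, h2⟩
  have k1 := (act_eq_one fr.π₁ι₁ h.h₁ g).1 h1
  have k2 := (act_eq_one fr.πι h.h₂ g).1 h2
  apply Subtype.ext
  apply Units.ext
  apply eq_of_mulVec
  intro x
  rw [Subgroup.coe_one, Units.val_one, one_mulVec]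
  conv_lhs => rw [fr.dec₁ x]
  conv_rhs => rw [fr.dec₁ x]
  rw [mulVec_add, k1, k2]

theorem card_ker₂ [Fintype F] (h : fr.Sta Y) : Nat.card (r₂ h).ker ∣ Nat.card (spGL 1 F) := by
  have hfin : Finite (GL (Fin 1 ⊕ Fin 1) F) := inferInstance
  have hinj : Function.Injective ((r₁ h).comp (r₂ h).ker.subtype) := by
    rw [← MonoidHom.ker_eq_bot_iff, Subgroup.eq_bot_iff_forall]
    intro x hx
    have h1 : (x : Y) ∈ (r₁ h).ker ⊓ (r₂ h).ker := ⟨hx, x.2⟩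
    rw [ker_inf, Subgroup.mem_bot] at h1
    exact Subtype.ext h1
  rw [Nat.card_congr (MonoidHom.ofInjective hinj).toEquiv]
  apply Subgroup.card_dvd_of_le
  rintro _ ⟨x, rfl⟩
  exact r₁_mem h _

theorem card_sta [Fintype F] (h : fr.Sta Y) : Nat.card Y ∣ Nat.card (r₂ h).range * Nat.card (spGL 1 F) := by
  have h1 : Nat.card Y = Nat.card (r₂ h).range * Nat.card (r₂ h).ker := by
    rw [← Subgroup.index_ker, mul_comm, Subgroup.card_mul_index]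
  rw [h1]
  exact Nat.mul_dvd_mul_left _ (card_ker₂ h)

theorem card_sta₁ [Fintype F] (h : fr.Sta Y) : Nat.card Y ∣ Nat.card (spGL 1 F) * Nat.card (r₁ h).ker := by
  have hfin : Finite (GL (Fin 1 ⊕ Fin 1) F) := inferInstance
  have h1 : Nat.card Y = Nat.card (r₁ h).range * Nat.card (r₁ h).ker := by
    rw [← Subgroup.index_ker, mul_comm, Subgroup.card_mul_index]
  rw [h1]
  refine Nat.mul_dvd_mul_right ?_ _
  apply Subgroup.card_dvd_of_le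
  rintro _ ⟨x, rfl⟩
  exact r₁_mem h _

end Fr

end Cfsg.Agent.H402.Rg
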